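import Cfsg.Agent.H756.PU.AsmGen
import Cfsg.Agent.H776.P4.Stmts2

/-!
# S5210: general facts for the assembly (twisting by automorphisms, orders)
-/

set_option autoImplicit false

namespace Cfsg.Agent.H772.P4

open Cfsg Cfsg.FusionSystem Cfsg.Agent.H776.P4 Cfsg.Agent.H802
open Cfsg.Agent.H756.PU (HypK Ess Inv Com NormAut TIAut AF)

universe u

section gen

variable {G : Type u} [Group G]

/-- the restriction of an automorphism to a characteristic subgroup -/
theorem exists_restr {Q : Subgroup G} (hc : ∀ α : MulAut G, Q.map α.toMonoidHom = Q) (θ : MulAut G) :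
    ∃ t : MulAut Q, ∀ e : Q, ((t e : Q) : G) = θ e := by
  have h1 : ∀ (α : MulAut G) (e : Q), α e ∈ Q := by
    intro α e
    have : α (e : G) ∈ Q.map α.toMonoidHom := ⟨e, e.2, rfl⟩
    rwa [hc α] at this
  refine ⟨{ toFun := fun e => ⟨θ e, h1 θ e⟩
            invFun := fun e => ⟨θ⁻¹ (e : G), h1 θ⁻¹ e⟩
            left_inv := fun e => Subtype.ext (MulAut.inv_apply_self _ _ _)
            right_inv := fun e => Subtype.ext (MulAut.apply_inv_self _ _ _)
            map_mul' := fun a b => Subtype.ext (map_mul θ _ _) }, fun e => rfl⟩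

theorem conj_sub {Q : Subgroup G} {θ : MulAut G} {t : MulAut Q} (ht : ∀ e : Q, ((t e : Q) : G) = θ e)
    {x : MulAut Q} (hx : x ∈ autInducedBy ⊤ Q) : t * x * t⁻¹ ∈ autInducedBy ⊤ Q := by
  rw [mem_autInducedBy_iff] at hx ⊢
  obtain ⟨g, -, hg⟩ := hx
  refine ⟨θ g, Subgroup.mem_top _, fun e => ?_⟩
  show ((t (x (t⁻¹ e)) : Q) : G) = _
  rw [ht, hg, map_mul, map_mul, map_inv, ← ht, MulAut.apply_inv_self]

theorem restr_inv {Q : Subgroup G} {θ : MulAut G} {t : MulAut Q} (ht : ∀ e : Q, ((t e : Q) : G) = θ e) :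
    ∀ e : Q, ((t⁻¹ e : Q) : G) = θ⁻¹ e := by
  intro e
  apply θ.injective
  rw [← ht, MulAut.apply_inv_self, MulAut.apply_inv_self]

theorem map_autInducedBy {Q : Subgroup G} {θ : MulAut G} {t : MulAut Q} (ht : ∀ e : Q, ((t e : Q) : G) = θ e) :
    (autInducedBy ⊤ Q).map (MulAut.conj t).toMonoidHom = autInducedBy ⊤ Q := by
  apply le_antisymm
  · rintro _ ⟨x, hx, rfl⟩
    exact conj_sub ht hx
  · intro x hx
    refine ⟨t⁻¹ * x * t⁻¹⁻¹, conj_sub (restr_inv ht) hx, ?_⟩
    show t * (t⁻¹ * x * t⁻¹⁻¹) * t⁻¹ = x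
    group

theorem not_norm_map {Q : Subgroup G} {θ : MulAut G} {t : MulAut Q} (ht : ∀ e : Q, ((t e : Q) : G) = θ e)
    {Γ : Subgroup (MulAut Q)} (h : ¬ ∀ γ ∈ Γ, NormAut (⊤ : Subgroup G) γ) :
    ¬ ∀ γ ∈ Γ.map (MulAut.conj t).toMonoidHom, NormAut (⊤ : Subgroup G) γ := by
  intro h1
  apply h
  intro γ hγ x hx
  have h2 := h1 _ ⟨γ, hγ, rfl⟩ (t * x * t⁻¹) (conj_sub ht hx)
  have h3 := conj_sub (restr_inv ht) h2
  have h4 : t⁻¹ * ((MulAut.conj t).toMonoidHom γ * (t * x * t⁻¹) * ((MulAut.conj t).toMonoidHom γ)⁻¹) * t⁻¹⁻¹ =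
      γ * x * γ⁻¹ := by
    show t⁻¹ * ((t * γ * t⁻¹) * (t * x * t⁻¹) * (t * γ * t⁻¹)⁻¹) * t⁻¹⁻¹ = γ * x * γ⁻¹
    group
  rwa [h4] at h3

theorem card_map_conj {A : Type*} [Group A] (t : A) (Γ : Subgroup A) :
    Nat.card (Γ.map (MulAut.conj t).toMonoidHom) = Nat.card Γ :=
  (Nat.card_congr (Γ.equivMapOfInjective _ (MulAut.conj t).injective).toEquiv).symm

theorem map_conj_of_comm {A : Type*} [Group A] (t : A) (Γ : Subgroup A) (h : ∀ d ∈ Γ, t * d = d * t) :
    Γ.map (MulAut.conj t).toMonoidHom = Γ := by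
  apply le_antisymm
  · rintro _ ⟨x, hx, rfl⟩
    show t * x * t⁻¹ ∈ Γ
    rw [h x hx, mul_assoc, mul_inv_cancel, mul_one]
    exact hx
  · intro x hx
    refine ⟨x, hx, ?_⟩
    show t * x * t⁻¹ = x
    rw [h x hx, mul_assoc, mul_inv_cancel, mul_one]

/-- the order of `Inn(G) D` for `D` of order prime to `p` -/
theorem card_inn_sup [Finite G] {p : ℕ} [Fact p.Prime] (hp : IsPGroup p (⊤ : Subgroup G)) (D : Subgroup (MulAut G))
    (hD : (Nat.card D).Coprime p) :
    Nat.card ((MulAut.conj : G →* MulAut G).range ⊔ D : Subgroup (MulAut G)) =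
      Nat.card (MulAut.conj : G →* MulAut G).range * Nat.card D := by
  have hfin : Finite (MulAut G) :=
    Finite.of_injective (fun α : MulAut G => α.toEquiv) (fun a b h => by
      ext x; exact congrArg (fun e : G ≃ G => e x) h)
  have hn : (MulAut.conj : G →* MulAut G).range.Normal := by
    constructor
    rintro _ ⟨g, rfl⟩ α
    refine ⟨α g, ?_⟩
    ext x
    simp [MulAut.conj_apply]
  have hdis : (MulAut.conj : G →* MulAut G).range ⊓ D = ⊥ := by
    rw [eq_bot_iff]
    rintro x ⟨⟨g, rfl⟩, hx⟩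
    rw [Subgroup.mem_bot]
    obtain ⟨k, hk⟩ := hp ⟨g, Subgroup.mem_top g⟩
    have hk' : g ^ p ^ k = 1 := congrArg Subtype.val hk
    have h1 : (MulAut.conj g) ^ p ^ k = 1 := by rw [← map_pow, hk', map_one]
    have h2 : orderOf (MulAut.conj g) ∣ p ^ k := orderOf_dvd_of_pow_eq_one h1
    have h3 : orderOf (MulAut.conj g) ∣ Nat.card D := by
      have := orderOf_dvd_natCard (⟨MulAut.conj g, hx⟩ : D)
      rwa [← Subgroup.orderOf_coe] at this
    have h4 : Nat.Coprime (Nat.card D) (p ^ k) := hD.pow_right k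
    have h5 : orderOf (MulAut.conj g) = 1 := Nat.eq_one_of_dvd_coprimes h4 h3 h2
    exact orderOf_eq_one_iff.1 h5
  have h6 := Subgroup.relIndex_mul_relIndex ⊥ (MulAut.conj : G →* MulAut G).range
    ((MulAut.conj : G →* MulAut G).range ⊔ D) bot_le le_sup_left
  rw [Subgroup.relIndex_bot_left, Subgroup.relIndex_bot_left, Subgroup.relIndex_sup_left,
    ← Subgroup.inf_relIndex_right, hdis, Subgroup.relIndex_bot_left] at h6
  exact h6.symm

end gen

section three

variable {K : Type u} [Field K] [StarRing K] {p n : ℕ}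

theorem p_three (hK : HypK K p n) (h3 : p ^ n = 3) : p = 3 := by
  have h1 : p ∣ 3 := h3 ▸ dvd_pow_self p (by have := hK.hn; omega)
  exact (Nat.prime_dvd_prime_iff_eq hK.pp Nat.prime_three).1 h1

theorem three_zero (hK : HypK K p n) (h3 : p ^ n = 3) : (3 : K) = 0 := by
  have := hK.char
  have h := CharP.cast_eq_zero K p
  rw [p_three hK h3] at h
  exact_mod_cast h

theorem two_eq (hK : HypK K p n) (h3 : p ^ n = 3) : (2 : K) = -1 := by
  have := three_zero hK h3
  linear_combination this

theorem one_ne_neg (hK : HypK K p n) (h3 : p ^ n = 3) : (1 : K) ≠ -1 := by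
  intro h
  have h1 := three_zero hK h3
  have : (1 : K) = 0 := by linear_combination h1 - h
  exact one_ne_zero this

theorem mem_center_iff (hK : HypK K p n) (h3 : p ^ n = 3) (x : PG K) : x ∈ Subgroup.center (PG K) ↔ x ∈ PZ K := by
  rw [Subgroup.mem_center_iff]
  have h30 := three_zero hK h3
  constructor
  · intro h
    have hc : x.c = 0 := by
      have := congrArg PG.b (h { r := 1, a := 0, b := 0, c := 0, ha := by simp, hc := by simp })
      simpa [PG.mul_b] using this
    have hr : x.r = 0 := by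
      have := congrArg PG.b (h { r := 0, a := 0, b := 0, c := 1, ha := by simp, hc := by simp })
      simpa [PG.mul_b] using this.symm
    have hb : x.b = 0 := by
      have := congrArg PG.a (h { r := x.b, a := 0, b := 0, c := 0, ha := by simp, hc := by simp })
      simp only [PG.mul_a, hc, hr, star_zero, mul_zero, add_zero, zero_add] at this
      have h1 : x.b * star x.b = 0 := by
        linear_combination this * (-1) + x.b * star x.b * h30
      rcases mul_eq_zero.1 h1 with h2 | h2
      · exact h2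
      · have := congrArg star h2
        rwa [star_star, star_zero] at this
    exact ⟨hr, hb, hc⟩
  · rintro ⟨h1, h2, h4⟩ g
    ext
    · simp [h1]
    · simp [PG.mul_a, h1, h2, h4, add_comm]
    · simp [PG.mul_b, h1, h2, h4]
    · simp [h4]

theorem card_PZ (hK : HypK K p n) (h3 : p ^ n = 3) : Nat.card (PZ K) = 3 := by
  let z : PG K := { r := 0, a := 1, b := 0, c := 0, ha := by simp, hc := by simp }
  let z' : PG K := { r := 0, a := -1, b := 0, c := 0, ha := by simp, hc := by simp }
  have h1 : ((PZ K : Subgroup (PG K)) : Set (PG K)) = {1, z, z'} := by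
    ext x
    constructor
    · rintro ⟨h1, h2, h4⟩
      have h5 : x.a ^ 3 = x.a := by
        have := x.ha
        rwa [hK.star_eq, h3] at this
      have h6 : x.a = 0 ∨ x.a = 1 ∨ x.a = -1 := by
        have h7 : x.a * ((x.a - 1) * (x.a + 1)) = 0 := by linear_combination h5
        rcases mul_eq_zero.1 h7 with h8 | h8
        · exact Or.inl h8
        · rcases mul_eq_zero.1 h8 with h9 | h9
          · exact Or.inr (Or.inl (sub_eq_zero.1 h9))
          · exact Or.inr (Or.inr (eq_neg_of_add_eq_zero_left h9))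
      rcases h6 with h | h | h
      · left
        ext <;> simp [h1, h2, h4, h]
      · right; left
        ext <;> simp [z, h1, h2, h4, h]
      · right; right
        ext <;> simp [z', h1, h2, h4, h]
    · rintro (rfl | rfl | rfl)
      · exact (PZ K).one_mem
      · exact ⟨rfl, rfl, rfl⟩
      · exact ⟨rfl, rfl, rfl⟩
  have h2 : (((PZ K : Subgroup (PG K)) : Set (PG K))).ncard = 3 := by
    rw [Set.ncard_eq_three]
    refine ⟨1, z, z', ?_, ?_, ?_, h1⟩
    · intro h
      have := congrArg PG.a h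
      simp [z] at this
    · intro h
      have := congrArg PG.a h
      simp [z'] at this
    · intro h
      have := congrArg PG.a h
      exact one_ne_neg hK h3 this
  rw [← h2]
  rfl

theorem card_inn (hK : HypK K p n) (h3 : p ^ n = 3) (hc : Nat.card (PG K) = (p ^ n) ^ 6) :
    Nat.card (MulAut.conj : PG K →* MulAut (PG K)).range = 243 := by
  have h1 : (MulAut.conj : PG K →* MulAut (PG K)).ker = Subgroup.center (PG K) := by
    ext x
    rw [MonoidHom.mem_ker, Subgroup.mem_center_iff]
    constructor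
    · intro h g
      have := congrArg (fun α : MulAut (PG K) => α g) h
      have h2 : x * g * x⁻¹ = g := this
      have h4 := congrArg (fun y => y * x) h2
      simpa [mul_assoc] using h4.symm
    · intro h
      ext1 g
      show x * g * x⁻¹ = g
      rw [← h g, mul_assoc, mul_inv_cancel, mul_one]
  have h2 : Subgroup.center (PG K) = PZ K := Subgroup.ext fun x => mem_center_iff hK h3 x
  have h4 := Subgroup.card_mul_index (MulAut.conj : PG K →* MulAut (PG K)).ker
  rw [Subgroup.index_ker, h1, h2, card_PZ hK h3, hc, h3] at h4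
  omega

end three

end Cfsg.Agent.H772.P4
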